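import Cfsg.Agent.Lib.Helper5.CS4.Defs
import Cfsg.Agent.S4035

set_option autoImplicit false

/-!
Package [GOOD] of the S4146 project: a good element for `m` forces `n` to be a prime power with a
good element.
-/

namespace Cfsg.Agent.Lib.Helper16.CS4

open Cfsg.Agent.Lib.Helper5.CS4

universe u

/-- Class sizes are invariant under conjugation. -/
theorem cidx_conj {G : Type u} [Group G] (g x : G) : cidx (g * x * g⁻¹) = cidx x := by
  change (Subgroup.centralizer ({g * x * g⁻¹} : Set G)).index =
    (Subgroup.centralizer ({x} : Set G)).index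
  rw [← Cfsg.Agent.S4035.ncard_carrier_eq_index, ← Cfsg.Agent.S4035.ncard_carrier_eq_index]
  congr 2
  exact ConjClasses.mk_eq_mk_iff_isConj.mpr (isConj_iff.mpr ⟨g⁻¹, by group⟩)

/-- Orders are invariant under conjugation. -/
theorem orderOf_conj' {G : Type u} [Group G] (g x : G) : orderOf (g * x * g⁻¹) = orderOf x := by
  have := MulEquiv.orderOf_eq (MulAut.conj g) x
  simpa [MulAut.conj_apply] using this

/-- An `s`-element commutes with a conjugate of any element whose class size is prime to `s`. -/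
theorem exists_conj_commute {G : Type u} [Group G] [Finite G] (a b : G) (s j : ℕ) (hs : s.Prime)
    (hb : orderOf b = s ^ j) (hsa : ¬ s ∣ cidx a) :
    ∃ g : G, (g * a * g⁻¹) * b = b * (g * a * g⁻¹) := by
  haveI : Fact s.Prime := ⟨hs⟩
  obtain ⟨Q, -, hQ⟩ := Cfsg.Agent.S4035.exists_sylow_le (p := s)
    (Subgroup.centralizer ({a} : Set G)) hsa 1 (one_mem _) ⟨0, by simp⟩
  have hR0 : IsPGroup s (Subgroup.zpowers b) :=
    IsPGroup.of_card (n := j) (by rw [Nat.card_zpowers, hb])
  obtain ⟨P, hP⟩ := hR0.exists_le_sylow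
  obtain ⟨g, hg⟩ := MulAction.exists_smul_eq G Q P
  have hb' : b ∈ ((g • Q : Sylow s G) : Subgroup G) := by
    rw [hg]
    exact hP (Subgroup.mem_zpowers b)
  rw [Sylow.coe_subgroup_smul, Subgroup.mem_pointwise_smul_iff_inv_smul_mem] at hb'
  have hb'' : g⁻¹ * b * g ∈ (Q : Subgroup G) := by
    simpa [MulAut.smul_def] using hb'
  have h1 := hQ hb''
  rw [Subgroup.mem_centralizer_iff] at h1
  have h2 : a * (g⁻¹ * b * g) = g⁻¹ * b * g * a := h1 a (Set.mem_singleton a)
  refine ⟨g, ?_⟩
  calc g * a * g⁻¹ * b = g * (a * (g⁻¹ * b * g)) * g⁻¹ := by group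
    _ = g * (g⁻¹ * b * g * a) * g⁻¹ := by rw [h2]
    _ = b * (g * a * g⁻¹) := by group

/-- Central elements are exactly those of class size `1`. -/
theorem cidx_eq_one_iff {G : Type u} [Group G] (x : G) :
    cidx x = 1 ↔ x ∈ Subgroup.center G := by
  change (Subgroup.centralizer ({x} : Set G)).index = 1 ↔ _
  rw [Subgroup.index_eq_one, Subgroup.centralizer_eq_top_iff_subset, Set.singleton_subset_iff]
  rfl

/-- Package [GOOD]. -/
theorem pkgGood (hPP : PkgPP.{u}) (hProd : PkgProd.{u}) (hIto : PkgItoSub.{u})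
    (hGoodS : PkgGoodS.{u}) : PkgGood.{u} := by
  intro G _ _ n m ctx hgood
  obtain ⟨b, s, j, hs, hb, hbm, hsm⟩ := hgood
  obtain ⟨H', hH'le, ⟨i, hi⟩, hH'cop, hH'comm, hH'cls⟩ := hGoodS n m ctx b s j hs hb hbm hsm
  obtain ⟨hn, hm, hcop, hr⟩ := ctx
  have hsn : ¬ s ∣ n := by
    intro h
    have := Nat.dvd_gcd h hsm
    rw [hcop.gcd_eq_one] at this
    exact hs.one_lt.ne' (Nat.dvd_one.mp this)
  -- an element of class size `n`
  have hnr : n ∈ Set.range (fun x : G => cidx x) := by
    rw [hr]
    simp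
  obtain ⟨x, hx⟩ := hnr
  have hx : cidx x = n := hx
  have hxc : x ∉ Subgroup.center G := by
    intro h
    rw [← cidx_eq_one_iff, hx] at h
    omega
  obtain ⟨i₀, r, k, hrp, hord, hnc⟩ := hPP x hxc
  -- the prime-power element `a₁ = x ^ i₀` has class size `n`
  have ha₁ : cidx (x ^ i₀) = n := by
    have hle : Subgroup.centralizer ({x} : Set G) ≤ Subgroup.centralizer ({x ^ i₀} : Set G) := by
      intro g hg
      rw [Subgroup.mem_centralizer_iff] at hg ⊢
      intro h hh
      rw [Set.mem_singleton_iff] at hh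
      subst hh
      have h1 : Commute x g := hg x (Set.mem_singleton x)
      exact (h1.pow_left i₀)
    have hdvd : cidx (x ^ i₀) ∣ n := by
      rw [← hx]
      exact Subgroup.index_dvd_of_le hle
    have hmem : cidx (x ^ i₀) ∈ ({1, n, m, n * m} : Set ℕ) := by
      rw [← hr]
      exact ⟨x ^ i₀, rfl⟩
    simp only [Set.mem_insert_iff, Set.mem_singleton_iff] at hmem
    rcases hmem with h | h | h | h
    · exact absurd ((cidx_eq_one_iff _).mp h) hnc
    · exact h
    · exfalso
      rw [h] at hdvd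
      have := Nat.dvd_gcd hdvd dvd_rfl
      rw [hcop.gcd_eq_one] at this
      have : m = 1 := Nat.dvd_one.mp this
      omega
    · exfalso
      rw [h] at hdvd
      have h1 : m ∣ n := dvd_trans (Dvd.intro_left n rfl) hdvd
      have := Nat.dvd_gcd h1 dvd_rfl
      rw [hcop.gcd_eq_one] at this
      have : m = 1 := Nat.dvd_one.mp this
      omega
  -- conjugate it into `C(b)`
  obtain ⟨g, hg⟩ := exists_conj_commute (x ^ i₀) b s j hs hb (by rw [ha₁]; exact hsn)
  set a : G := g * x ^ i₀ * g⁻¹ with ha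
  have han : cidx a = n := by rw [ha, cidx_conj, ha₁]
  have hao : orderOf a = r ^ k := by rw [ha, orderOf_conj', hord]
  set H : Subgroup G := Subgroup.centralizer ({b} : Set G) with hH
  -- relative class size of `a` in `H`
  have hrelH : (Subgroup.centralizer ({a} : Set G)).relIndex H = n := by
    have h1 := (hProd n m hcop a b han hbm).2
    have h2 : (Subgroup.centralizer ({a} : Set G)).relIndex H * m = n * m := by
      rw [← h1, ← hbm]
      change _ * H.index = _
      rw [← Subgroup.inf_relIndex_right, Subgroup.relIndex_mul_index inf_le_right]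
    exact Nat.eq_of_mul_eq_mul_right (by omega) h2
  -- `H' ≤ C(a)` is impossible
  have hnot : ¬ H' ≤ Subgroup.centralizer ({a} : Set G) := by
    intro hle
    have h1 : (Subgroup.centralizer ({a} : Set G)).relIndex H ∣ H'.relIndex H :=
      Subgroup.relIndex_dvd_of_le_left H hle
    rw [hrelH, hi] at h1
    obtain ⟨t, ht, htn⟩ := Nat.exists_prime_and_dvd (show n ≠ 1 by omega)
    have hts : t ∣ s := ht.dvd_of_dvd_pow (dvd_trans htn h1)
    have : t = s := (Nat.prime_dvd_prime_iff_eq ht hs).mp hts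
    rw [this] at htn
    exact hsn htn
  have hrs : r ≠ s := by
    rintro rfl
    apply hnot
    intro y hy
    rw [Subgroup.mem_centralizer_iff]
    intro z hz
    rw [Set.mem_singleton_iff] at hz
    subst hz
    exact hH'comm a hg k hao y hy
  have haH' : a ∈ H' := by
    apply hH'cop a hg
    rw [hao]
    exact Nat.Coprime.pow_left k ((Nat.coprime_primes hrp hs).mpr hrs)
  have hrelH' : (Subgroup.centralizer ({a} : Set G)).relIndex H' = n := by
    rcases hH'cls a haH' with h | h
    · exact absurd (Subgroup.relIndex_eq_one.mp h) hnot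
    · exact h
  obtain ⟨hpp, hrn⟩ := hIto H' n hn hH'cls a haH' hrelH' r k hrp hao
  exact ⟨hpp, a, r, k, hrp, hao, han, hrn⟩

end Cfsg.Agent.Lib.Helper16.CS4
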